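import Cfsg.Agent.LThreeFi23.PrimesC

/-!
# `Fi₂₃`: the commuting pairs `(y, x y)` for an element `x` of order 16 (kernel; helper532)
-/

set_option autoImplicit false
set_option maxRecDepth 100000

namespace Cfsg.Agent.H532.PNormTwo.Fi23

open Cfsg.Agent.Lib.PermNet Cfsg.Agent.LThreeFi23
open Cfsg.Agent.LThreeFi23.Tr (n o)

/-- the element of order 16 -/
def w : List Lt := [.d, .f, .g, .j, .c, .e, .d, .h, .b, .f, .c, .e, .j, .d, .i, .h, .c, .e, .a, .c]

/-! trees of letters: at least one point of every orbit of `w` -/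

def t0 : Tr :=
  (n .c (n .a (n .d (n .h (n .b (n .a o (n .e (n .d (n .a (n .f (n .e (n .a (n .d o (n .i (n .z o o) o)) (n .d
  (n .z o (n .g o o)) o)) (n .g o (n .z o o))) o) o) (n .f (n .a (n .z o o) (n .g (n .d (n .e (n .c (n .a o (n
  .f o (n .j o (n .z o o)))) (n .z o o)) o) (n .j (n .a o (n .z o o)) o)) o)) o)) (n .z o o))) o) (n .b (n .e (n
  .a (n .f (n .g (n .j o (n .z o o)) o) (n .z o o)) (n .f (n .g (n .j (n .z o o) o) o) o)) o) (n .e o o))) (n .b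
  (n .a (n .z o o) o) o)) (n .d (n .c (n .a (n .e o o) (n .h (n .f (n .a (n .g (n .z o (n .j (n .c (n .b (n .i o
  o) o) o) (n .c (n .b (n .a (n .e o o) (n .e (n .d o o) o)) o) o))) (n .i (n .z (n .j (n .b o (n .i o o)) (n .c
  (n .b (n .a (n .e (n .d (n .j o (n .c (n .h (n .f o o) o) (n .f (n .h o o) (n .h o o)))) o) o) (n .e (n .j o
  o) o)) (n .e o o)) o)) (n .c (n .b (n .a (n .e (n .d (n .f (n .c (n .e (n .z o (n .g o o)) o) o) o) o) o) (n
  .e o o)) o) o)) (n .c (n .b (n .a o (n .e (n .f (n .g (n .d (n .c (n .f (n .b (n .j o o) (n .z o o)) (n .i (n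
  .j o o) (n .e (n .h o o) (n .z o o)))) (n .e o (n .a (n .j (n .z o o) o) o))) (n .j o (n .z (n .j (n .c o o)
  o) o))) (n .z o o)) o) o)) o) o))) (n .g (n .i o (n .c (n .b o o) o)) (n .c o (n .z (n .e o o) o)))) o) o)) (n
  .h (n .b (n .a o (n .e (n .d (n .a o (n .c (n .z o o) (n .z o o))) (n .f o o)) (n .z o o))) o) (n .e (n .b (n
  .a (n .f (n .g (n .e o o) o) (n .z o o)) (n .z o o)) (n .z o o)) o))) (n .b (n .c (n .b (n .f o (n .z (n .j o
  (n .c o o)) o)) (n .f o (n .z (n .a o o) o))) (n .z o o)) (n .z o o)))) (n .z (n .j o o) o))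

def t1 : Tr :=
  (n .g (n .b (n .j (n .i (n .h (n .d (n .c (n .b (n .a (n .e o o) o) (n .e o o)) o) o) o) o) (n .i o (n .z o
  o))) (n .j (n .i (n .h (n .d (n .c (n .b (n .d (n .e (n .d o o) o) (n .a o (n .e (n .f (n .g (n .a o o) o) o)
  o))) (n .e (n .d o (n .f o o)) o)) (n .e (n .f o o) o)) o) o) o) (n .i (n .z o o) (n .z o o)))) (n .i (n .h (n
  .d (n .f t0 (n .a (n .c (n .g (n .d (n .b (n .c (n .e (n .a o (n .d (n .c o o) (n .f (n .z o o) (n .z o o))))
  (n .z o o)) (n .e (n .d o (n .z o o)) (n .z o o))) (n .e (n .g (n .a (n .c o (n .b (n .h (n .f (n .g (n .f o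
  (n .a (n .z (n .j o o) o) (n .d o (n .z (n .j (n .z o o) o) o)))) (n .z o o)) o) (n .z o o)) (n .d o (n .f o
  (n .z o o))))) (n .b (n .f (n .g (n .a o (n .d o (n .j o o))) o) (n .z o o)) (n .d o (n .f (n .c (n .b (n .g
  (n .j o o) (n .z (n .j (n .b o o) o) o)) o) (n .g (n .d (n .z o o) o) o)) o)))) (n .d o (n .f (n .h (n .j o (n
  .g (n .z o (n .b (n .i (n .j (n .g (n .z o o) (n .z o o)) o) o) o)) o)) (n .g (n .a (n .z o o) (n .b (n .a (n
  .j (n .h (n .c (n .z o o) o) (n .d o o)) o) o) o)) (n .z o o))) (n .z o o)))) o)) (n .b (n .a o (n .e o (n .z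
  o o))) (n .e (n .d o o) (n .z o o)))) (n .b (n .a (n .d (n .c (n .e (n .d o (n .z o o)) (n .z o o)) (n .e o (n
  .z o o))) o) (n .e o (n .z o o))) (n .e (n .z o o) (n .z o o)))) (n .z o o)) (n .g (n .b (n .c o (n .z o o))
  (n .c (n .b o (n .e o (n .z o o))) (n .e o (n .z (n .a o o) o)))) (n .c (n .b (n .a (n .d (n .e o o) o) o) (n
  .e o (n .z o o))) (n .e (n .z (n .a o o) o) (n .z o o)))))) (n .z (n .b o o) o)) (n .z o o)) (n .z (n .b o o)
  o)))

def t2 : Tr :=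
  (n .f (n .b (n .j o (n .i o o)) (n .i o o)) (n .d (n .b (n .e (n .a (n .i (n .z o o) (n .z o o)) (n .j (n .b
  (n .z (n .j (n .z o o) (n .f (n .g o o) o)) (n .f (n .g (n .j (n .c (n .z o o) (n .i (n .z o o) o)) o) o) o))
  (n .z (n .f (n .e (n .c o o) o) o) (n .f (n .h o (n .c (n .g (n .j (n .i (n .z o o) o) o) o) o)) o))) (n .c (n
  .g (n .e o (n .f (n .b (n .z o (n .h (n .g (n .z o o) o) (n .a (n .b (n .z o o) o) o))) o) (n .h (n .d (n .c
  (n .a (n .z (n .h o o) (n .h (n .i (n .a (n .d o (n .g o (n .e (n .i (n .f (n .z o (n .e (n .i (n .z o o) o)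
  o)) (n .b (n .c (n .h (n .z o (n .g (n .j (n .f (n .g (n .z o o) o) o) o) o)) (n .z o o)) o) o)) (n .d (n .a
  (n .z (n .e o o) o) (n .z o o)) (n .b (n .f (n .z (n .c (n .e o o) o) (n .c (n .e (n .b (n .f (n .z o o) (n .c
  (n .i (n .z o o) (n .z (n .j (n .d o o) o) (n .h (n .d (n .g (n .j (n .z o o) o) o) o) o))) (n .z o o))) o) o)
  o)) (n .z o o)) (n .z (n .j o o) (n .c o o))))) o))) o) o) (n .b (n .c (n .i o o) o) o))) o) o) (n .b o (n .i
  (n .f (n .g o o) o) (n .z o o)))) o))) (n .h (n .i (n .a (n .z o o) o) o) (n .f (n .g (n .e (n .z o o) o) o)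
  o))) (n .i (n .z o o) (n .z o o))))) (n .a (n .i (n .c (n .b (n .z o o) (n .z o o)) o) (n .z o o)) (n .z o
  o))) (n .c (n .g (n .e (n .c (n .i (n .g (n .z o o) o) o) (n .f (n .g (n .z o o) o) (n .b (n .c (n .a (n .e (n
  .b (n .h o o) (n .z (n .j (n .a o o) o) o)) o) (n .z o o)) (n .g (n .i (n .h (n .z o o) o) o) (n .a (n .f (n
  .z o o) (n .z o o)) (n .z o o)))) (n .z o o)))) o) (n .b (n .c o o) o)) (n .i o (n .z o o)))) (n .i o o)))

def t3 : Tr :=
  (n .c (n .f (n .g (n .z o (n .j (n .c o o) o)) (n .i (n .c (n .z (n .g (n .b (n .h (n .z o o) (n .e (n .f (n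
  .h (n .z o o) (n .g (n .d (n .i (n .e (n .z (n .c (n .a o o) o) (n .c o o)) (n .h o o)) (n .e (n .a (n .j (n
  .z (n .a o o) (n .c o o)) (n .z o o)) (n .h (n .j (n .c (n .z o o) o) o) (n .z o o))) o)) (n .j o o)) o)) (n
  .z (n .d o o) o)) o)) (n .e (n .d (n .z o o) (n .f (n .i o (n .g (n .j (n .i o o) (n .z o o)) o)) (n .z o o)))
  o)) (n .h o (n .e (n .j o (n .b o (n .d o o))) o))) (n .h (n .b (n .f (n .a o (n .z o o)) o) o) (n .b (n .e (n
  .d (n .c o o) o) o) (n .e (n .d o o) o)))) o) o)) (n .i o (n .e (n .f (n .e (n .d (n .h o o) (n .c (n .b (n .g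
  (n .a (n .j (n .z o o) (n .z o o)) (n .d (n .c (n .i o (n .a (n .e (n .i o o) (n .h (n .b (n .d (n .e (n .i (n
  .z o o) o) o) o) (n .d (n .a (n .i (n .f o (n .z o o)) (n .z o o)) o) (n .z o o))) (n .z o o))) (n .e (n .h (n
  .f (n .g o (n .j (n .i (n .z o (n .a (n .d (n .b (n .z (n .j (n .c o o) o) (n .c (n .b (n .z o o) o) o)) (n .z
  (n .g (n .j (n .z o o) o) (n .h (n .d (n .e (n .d (n .c (n .b (n .a o o) o) o) o) o) o) o)) o)) o) o)) o) o))
  o) (n .z o o)) o))) (n .e (n .g (n .c o o) o) o)) o)) o) (n .g (n .j o o) o)) (n .g (n .f (n .c (n .b (n .a o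
  (n .j (n .i o (n .d (n .e o o) o)) o)) o) (n .j (n .z (n .c (n .b o o) o) (n .g (n .j o o) o)) o)) (n .j (n .d
  (n .z (n .j o o) o) o) o)) o))) (n .i (n .g (n .j (n .c o o) o) o) (n .g (n .c (n .j o o) (n .j (n .z o o) (n
  .z o o))) o))) o) o))) (n .b (n .f (n .g o o) (n .e (n .d (n .a (n .c o (n .z o o)) (n .c o o)) (n .f (n .g (n
  .d (n .c (n .e (n .j o o) (n .j o o)) (n .j (n .a (n .e (n .f o (n .h o (n .z o o))) (n .h o (n .z o o))) (n
  .e (n .b (n .j o o) o) o)) o)) (n .j o o)) o) o)) o)) (n .e (n .i (n .b (n .a (n .d o (n .f (n .g (n .d (n .z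
  o o) o) o) (n .z o o))) (n .f (n .h (n .b o o) (n .g (n .j o o) (n .z o o))) (n .z (n .j (n .g o o) o) o))) (n
  .d o (n .z o o))) (n .d o o)) (n .z (n .j o o) o))))

def t4 : Tr :=
  (n .d (n .b (n .a (n .z (n .f o o) (n .f o o)) (n .z (n .j o o) o)) (n .f (n .e (n .b o o) (n .g (n .i (n .f
  (n .g (n .j (n .d o o) (n .i (n .b (n .g (n .z (n .j (n .c (n .e o o) (n .a (n .z o o) (n .z o o))) o) o) (n
  .z o o)) o) o)) (n .j (n .d (n .i (n .f (n .c (n .i (n .z o o) (n .e (n .h (n .d (n .i (n .z o (n .f (n .g (n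
  .z o o) o) o)) o) o) o) (n .z o o))) (n .e o o)) (n .h (n .i o (n .z o o)) (n .z o o))) o) (n .g (n .z o o) (n
  .b (n .z o o) o))) (n .z o o))) (n .b (n .c (n .z o (n .f o o)) o) o)) (n .f (n .z (n .j (n .z o o) o) o) o))
  (n .z o o))) o)) (n .e (n .b (n .g (n .z o o) (n .a (n .c o (n .z o o)) (n .c (n .f (n .e o o) (n .d (n .b (n
  .i (n .a o (n .e (n .b (n .z (n .g (n .b o o) o) (n .g o o)) (n .z o o)) (n .z o o))) (n .c (n .a (n .b (n .f
  (n .e (n .b (n .z (n .j (n .c o o) o) o) o) o) (n .c (n .z (n .i (n .b (n .z o (n .j (n .f (n .i o o) o) o))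
  o) o) o) (n .z o o))) (n .z o o)) (n .e o (n .z (n .j o o) o))) (n .a (n .b (n .z (n .f o o) (n .f (n .i o (n
  .c o o)) o)) (n .f o o)) (n .z o o)))) (n .e (n .f o o) o)) (n .z (n .j (n .c o o) o) o))) o))) (n .f (n .c (n
  .h (n .i (n .b (n .z (n .e o (n .g o o)) (n .a (n .c (n .z o (n .g o o)) (n .g o o)) o)) (n .g (n .z (n .i (n
  .j (n .z (n .c (n .j (n .d (n .f (n .i o (n .j (n .e o (n .z o o)) (n .b (n .z o o) (n .z o o)))) o) (n .z o
  o)) o) (n .j o o)) o) o) o) o) o)) (n .g o o)) (n .b (n .c (n .h (n .z o o) (n .e (n .i (n .z o o) (n .g (n .z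
  o o) (n .z (n .j o o) o))) (n .d (n .g (n .z (n .f o o) o) (n .e o (n .z o o))) (n .z o o)))) o) (n .g o (n .z
  o o)))) (n .h (n .z (n .d (n .g o o) (n .b o o)) (n .d (n .g o o) (n .b (n .a o (n .c (n .e (n .z (n .a o o)
  (n .a o o)) o) o)) o))) o)) o)) (n .g (n .z (n .f o o) (n .j (n .h (n .f o o) o) (n .h o (n .f o o)))) (n .h
  (n .b (n .f (n .z (n .i o (n .j o (n .c o o))) (n .c (n .i (n .g (n .d (n .i o o) o) o) (n .g (n .j (n .f (n
  .b (n .g (n .z o o) (n .z o o)) o) o) (n .e (n .f (n .z o o) o) o)) o)) o)) o) (n .f (n .g o o) o)) (n .z o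
  o)))))

def t5 : Tr :=
  (n .e (n .b (n .g (n .z (n .a (n .i (n .c (n .b (n .i (n .z o o) o) (n .z o o)) (n .z o o)) o) (n .c o o)) (n
  .j (n .b o (n .i o o)) (n .a o (n .c o o)))) (n .a (n .c o (n .z o o)) (n .c (n .b (n .g (n .j o o) (n .z o
  o)) (n .z o o)) o))) (n .z o o)) (n .b (n .c (n .d (n .i (n .z o o) o) (n .h (n .b (n .d (n .a (n .z o (n .g o
  o)) (n .f (n .z o o) (n .z o o))) (n .i (n .f (n .z o o) (n .z (n .j (n .h (n .b o o) o) o) o)) (n .z o o)))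
  (n .i (n .a (n .z (n .h o o) (n .h o o)) (n .f o (n .z o o))) o)) o)) (n .h (n .g (n .z (n .f (n .g (n .c (n
  .d o o) o) (n .i (n .c o o) o)) o) (n .j o (n .f (n .g (n .c (n .b (n .d (n .i o o) (n .i o o)) (n .d o o)) (n
  .j (n .i (n .g (n .z o o) (n .a (n .h (n .i (n .z o o) (n .z o o)) (n .c o o)) (n .z o o))) o) o)) (n .i (n .c
  o (n .e (n .d (n .g (n .i (n .e (n .z o o) (n .z o o)) (n .e (n .j (n .z o o) (n .c (n .f (n .e (n .z (n .j (n
  .c (n .g (n .f (n .a (n .z o o) (n .z o o)) o) (n .b (n .c (n .z o o) o) o)) (n .z (n .i (n .b (n .z (n .e o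
  (n .f (n .i (n .z (n .j (n .z o o) o) o) o) o)) (n .e o (n .f o o))) o) o) o)) (n .b o o)) (n .b o o)) (n .h o
  (n .z (n .j (n .h (n .z o o) o) o) o))) o) (n .z o o))) (n .z (n .c (n .a (n .j (n .z o o) o) o) o) (n .j (n
  .f (n .z o o) (n .h o (n .z o (n .b (n .c (n .z o o) o) o)))) (n .c (n .b (n .a (n .i o (n .c (n .z o o) (n .b
  (n .z o o) (n .z o o)))) o) o) (n .f (n .g (n .z o (n .b (n .e (n .z o o) o) o)) o) o)))))) (n .c (n .z o (n
  .j (n .g o o) o)) o)) o) o)) o)) (n .i o o)))) (n .z o o)) o)) (n .h (n .f (n .i (n .b (n .e (n .f o o) (n .g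
  o o)) (n .e (n .d o (n .g (n .f (n .h (n .z o o) (n .z o o)) o) o)) o)) o) (n .i t4 o)) o)))

def t6 : Tr :=
  (n .f (n .g (n .j o (n .c (n .e (n .f (n .b (n .j o (n .a o (n .g o o))) (n .g o o)) o) o) o)) (n .i (n .c (n
  .z (n .b (n .j (n .e o o) (n .a o (n .e o o))) (n .e (n .j o (n .d o (n .f o o))) o)) (n .b (n .a o (n .e (n
  .g (n .f o o) o) o)) (n .e (n .d (n .i t5 o) (n .f (n .g (n .j (n .b (n .z o o) o) o) o) o)) o))) o) (n .c (n
  .b (n .a (n .e o (n .z (n .j (n .c (n .f (n .g o o) o) o) o) o)) (n .z o o)) (n .z o o)) (n .z o o)))) (n .i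
  (n .c (n .e (n .b (n .a (n .d o o) (n .f o (n .z o o))) (n .f (n .g (n .j (n .d (n .e (n .j (n .g (n .b (n .i
  (n .a (n .f o (n .d (n .z o (n .c (n .b (n .z o o) o) o)) (n .c (n .d (n .g o o) o) (n .z o o)))) (n .c o (n
  .g (n .j (n .d (n .b (n .z (n .j (n .c (n .g (n .b (n .z (n .c o o) o) (n .z o o)) (n .z (n .b (n .c o o) o)
  (n .b o o))) o) o) o) (n .c (n .d o o) o)) (n .c o (n .z o o))) o) (n .z o o)))) (n .d (n .z (n .g (n .c (n .d
  o o) (n .j o o)) o) (n .g (n .a (n .f o o) (n .c o o)) o)) (n .a o o))) o) (n .d (n .z (n .c (n .g (n .z (n .f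
  o (n .b (n .g (n .i (n .j (n .c o o) o) o) o) o)) (n .b (n .a (n .i (n .z (n .c (n .i (n .b o o) o) o) o) (n
  .c (n .b o o) o)) o) o)) (n .b o o)) (n .j (n .z o o) o)) (n .c (n .j o o) o)) (n .b o o))) o) (n .h (n .j (n
  .g (n .z o o) (n .z o o)) (n .b o o)) o)) (n .z o o)) (n .z o o)) (n .z o o)) (n .z o o))) (n .z o o)) (n .z o
  o)) (n .c (n .d t3 (n .b (n .a (n .z o o) (n .e (n .f (n .g (n .a (n .i o (n .j o (n .z o o))) (n .j o (n .z o
  o))) o) o) (n .z (n .j o o) o))) (n .e (n .d (n .h (n .b (n .a (n .f o o) (n .c (n .z o o) (n .z o o))) (n .i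
  (n .d (n .c o (n .f (n .e (n .c o (n .z (n .j o o) o)) o) o)) (n .e (n .b o (n .f (n .g (n .i o (n .j (n .b o
  o) (n .z o o))) o) o)) (n .h (n .z o o) o))) o)) o) (n .f (n .e (n .b (n .g (n .a (n .i (n .g (n .z o o) (n .z
  (n .c o o) (n .j o o))) (n .z o o)) (n .j (n .z o o) o)) (n .z o o)) (n .g o o)) (n .g o o)) o)) (n .z o o))))
  (n .z (n .j o o) o))))

def t7 : Tr :=
  (n .z (n .g (n .a (n .b (n .i (n .c (n .e (n .f (n .b (n .i (n .g (n .c (n .j (n .f o (n .i (n .z o o) o)) o)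
  (n .j (n .a o (n .z o o)) (n .z o o))) o) (n .a (n .g o o) o)) o) o) o) o) (n .z (n .e (n .j (n .f o o) o) o)
  o)) (n .c (n .b (n .a (n .i (n .c o o) (n .b o (n .c (n .e o (n .z o o)) (n .e (n .d (n .f (n .c (n .i (n .b
  (n .f (n .i o (n .z (n .j o o) o)) (n .g (n .a o (n .z o o)) (n .z o o))) (n .e (n .z (n .g o o) o) o)) (n .b
  o o)) (n .e (n .z o o) (n .h (n .z (n .j o o) o) o))) (n .z o o)) (n .f o (n .z (n .j (n .c o (n .f o o)) o)
  o))) (n .z o o))))) (n .z (n .e o o) o)) (n .e (n .d (n .b (n .f (n .e (n .b (n .a (n .i (n .z o o) o) o) (n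
  .c (n .h (n .g (n .z o o) (n .z o o)) (n .z o o)) (n .g (n .z o o) (n .z o o)))) o) (n .z o o)) o) o) (n .z o
  o))) o)) (n .c (n .i o (n .e (n .b (n .d (n .a (n .f (n .i o (n .e o o)) o) (n .z o o)) (n .f (n .g (n .z o o)
  (n .z (n .j (n .i o o) o) o)) o)) (n .d (n .i (n .z o o) (n .z (n .j (n .a (n .b o o) (n .b o o)) o) o)) (n .f
  o (n .z o o)))) (n .z (n .b (n .a (n .e (n .j o o) o) o) o) o))) (n .e (n .f (n .a (n .i o (n .g (n .b (n .j
  (n .c (n .z o o) o) (n .z o o)) (n .z o o)) (n .z o o))) o) (n .z o o)) o))) (n .j (n .f (n .i (n .c o o) (n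
  .c (n .a (n .g (n .e (n .b o o) o) o) (n .b o o)) (n .e (n .f o o) o))) (n .c (n .i o o) (n .e (n .i (n .f o
  o) (n .f o o)) o))) (n .c (n .b (n .a (n .j o o) (n .e (n .d o (n .f (n .g o o) o)) o)) (n .e (n .f (n .g o o)
  o) o)) o))) (n .c (n .b (n .a o (n .e (n .d (n .a o o) (n .f (n .g o o) o)) o)) (n .e (n .d o (n .f (n .g o o)
  o)) o)) o))

def t8 : Tr :=
  (n .d (n .b (n .h (n .a (n .f (n .z (n .i (n .j o o) o) (n .g (n .j (n .e (n .d (n .c (n .b (n .f (n .e o o)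
  o) (n .i o o)) (n .i o o)) (n .i (n .f o (n .h o o)) o)) (n .i o o)) (n .i o o)) (n .i (n .e o (n .h (n .d t7
  o) o)) o))) (n .i (n .h (n .d (n .a (n .c (n .b (n .a (n .e (n .d (n .c (n .h (n .b (n .c (n .d (n .z o o) o)
  o) (n .f (n .e (n .b o (n .a o (n .z o o))) o) o)) o) (n .f (n .e (n .b (n .a (n .d o o) (n .z o o)) (n .c (n
  .g o o) (n .g o (n .z o o)))) (n .z o o)) (n .z o o))) o) (n .z o o)) (n .z o o)) o) o) (n .c (n .b (n .a (n
  .e (n .f o o) (n .z o o)) (n .e (n .d (n .c (n .a o (n .h o o)) (n .h (n .f (n .b o o) o) o)) (n .f o o)) (n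
  .z o o))) (n .e (n .d (n .i o (n .a (n .b (n .c (n .h (n .z o o) o) (n .h o (n .z (n .j (n .f o o) o) o))) o)
  o)) (n .f (n .z o o) (n .z o o))) o)) o)) o) o) o)) (n .f (n .z (n .g (n .b (n .c (n .g (n .i (n .d (n .j o o)
  o) o) (n .i o o)) (n .i (n .z o o) o)) (n .i (n .a o (n .z (n .h (n .d o o) o) o)) o)) (n .j (n .f (n .b (n .g
  (n .h (n .b o o) o) o) (n .i (n .g (n .a (n .i o (n .h (n .d (n .c o o) o) o)) o) o) o)) (n .h o (n .i o o)))
  (n .i o o))) (n .g o (n .i (n .e o o) o))) (n .i o o))) o) (n .c (n .h (n .f (n .i o o) (n .d (n .e (n .i o (n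
  .z o o)) (n .i (n .h (n .d (n .z o o) o) o) o)) (n .i o (n .z o o)))) (n .i o o)) (n .h (n .f (n .z (n .i (n
  .j o o) o) (n .e (n .i o o) (n .i o o))) (n .i (n .z o o) o)) (n .i o o)))) (n .f (n .g (n .j (n .i (n .h (n
  .d (n .c (n .b o (n .e (n .f (n .b o (n .g (n .h (n .i o (n .j (n .z o o) o)) o) o)) o) o)) (n .e o o)) o) o)
  o) (n .i (n .d (n .c (n .z o o) (n .j o o)) (n .h (n .d (n .e (n .c (n .f (n .z o o) (n .z o o)) (n .f (n .h
  (n .d (n .j o o) (n .z (n .g (n .j (n .c o o) o) o) (n .g (n .j (n .z o o) o) o))) (n .g (n .j (n .c (n .b (n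
  .g (n .z o o) o) (n .z o o)) o) o) o)) o)) o) o) (n .z o o))) (n .z o o))) (n .i (n .h o o) o)) (n .i (n .h (n
  .d (n .h t6 (n .c (n .f (n .e (n .b (n .d o (n .f (n .g (n .a o o) o) o)) (n .d (n .z o o) (n .f (n .g (n .j o
  (n .z o o)) (n .z o o)) o))) o) (n .b (n .e (n .a (n .z o o) (n .d (n .h (n .f (n .b (n .c (n .g (n .i o o) (n
  .z o o)) (n .g (n .d (n .j o (n .i (n .h o o) o)) (n .e t2 (n .j o (n .i (n .z o o) (n .z o o))))) o)) (n .a
  (n .g (n .i (n .z o o) (n .z o o)) o) (n .g (n .j o (n .i o o)) (n .i (n .e (n .g o (n .d o o)) (n .z o o)) (n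
  .z o o))))) (n .i (n .z o o) o)) o) (n .f o o))) o) (n .e (n .d o (n .f (n .g (n .j (n .b (n .a o o) (n .z o
  o)) o) o) (n .z o o))) o))) (n .e o o))) o) (n .z o o)) o)))

def t9 : Tr :=
  (n .c (n .b (n .e t8 (n .i (n .h (n .d (n .c (n .e (n .d o (n .f (n .g (n .j (n .d (n .e (n .j (n .g o (n .c
  (n .d (n .b (n .a (n .c (n .z (n .g o (n .j (n .g (n .b (n .z o o) o) (n .a o o)) o)) (n .g o (n .b o o))) o)
  (n .j (n .c o (n .z o o)) (n .z o o))) o) (n .b (n .a o o) o)) o)) (n .c (n .f o o) (n .z (n .j (n .z (n .c (n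
  .b o o) o) (n .c o o)) o) o))) (n .h o o)) o) o) o) o)) o) (n .e (n .f (n .b (n .g (n .d (n .h (n .g (n .a (n
  .i (n .e o (n .z o o)) (n .c (n .e (n .g (n .d (n .c (n .a o o) o) o) o) o) o)) (n .b (n .i (n .e (n .g o o)
  (n .g (n .j (n .z (n .j (n .g (n .f (n .z (n .j o o) o) (n .e (n .b (n .g o o) (n .z o o)) (n .z o o))) (n .z
  o o)) o) o) o) (n .z o o))) o) (n .i (n .c (n .g (n .b (n .a (n .z o o) (n .d (n .c (n .z o o) (n .j o o)) o))
  o) o) o) (n .c (n .e (n .i o (n .g o o)) o) o)))) (n .b (n .j (n .e o o) (n .z o o)) (n .c o (n .j (n .e (n .f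
  (n .a (n .z o o) o) (n .i o o)) o) o)))) (n .c (n .a (n .b o (n .j o o)) (n .j o o)) (n .j (n .a (n .h (n .i o
  (n .c (n .b (n .i o (n .z o o)) (n .z o o)) o)) (n .e (n .c (n .b (n .z o o) (n .d o o)) o) o)) (n .e o o))
  o))) (n .j o o)) o) (n .g (n .j (n .z o o) o) o)) o) (n .z o o))) o) o) o)) (n .i (n .e (n .d (n .z o o) (n .f
  (n .h o (n .z o o)) o)) (n .h (n .d o o) o)) o)) (n .e (n .f (n .g (n .c (n .j (n .d (n .h (n .b (n .c (n .h o
  (n .d (n .i o o) o)) (n .i o o)) (n .i (n .h (n .d o o) o) o)) (n .i o o)) (n .i o o)) (n .i (n .h o o) (n .z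
  o o))) (n .j (n .i (n .h (n .d (n .c (n .b (n .a o (n .e (n .f o o) o)) o) (n .e (n .f (n .g (n .c o o) o) o)
  o)) o) o) o) (n .i (n .h o o) o))) (n .i o (n .z o o))) (n .i o o)) (n .i o (n .z (n .j (n .c (n .a o (n .g (n
  .b o o) o)) o) o) o))))

def tT : Tr :=
  (n .a o (n .j (n .g (n .z (n .f (n .e (n .z o (n .j (n .d (n .h (n .i (n .c (n .j (n .z (n .i (n .b (n .a (n
  .h o (n .d t9 (n .i o o))) (n .d (n .c (n .e (n .f (n .g (n .j (n .i (n .d (n .h (n .d (n .i (n .c (n .b o o)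
  o) (n .c (n .b o o) o)) o) o) (n .h (n .d (n .a (n .c (n .b (n .e (n .f o o) o) (n .e (n .f o o) o)) (n .e (n
  .f (n .g (n .b (n .j o o) (n .j o o)) o) o) o)) (n .e (n .c (n .d o (n .f o o)) (n .f o o)) o)) o) o)) o) (n
  .i o (n .z o o))) (n .i (n .h o o) o)) (n .i (n .d o o) o)) (n .i (n .h (n .d (n .e (n .d o o) o) o) o) o)) (n
  .e (n .f t1 (n .i o o)) (n .i (n .h o o) (n .z o o)))) o)) o) (n .c o (n .b o (n .d (n .e o o) o)))) o) o) o)
  o) o) o) o)) o) o) o) o) o))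

/-- the visited points `q` with `q` and `x q` commuting (`e = false`) or not commuting (`e = true`), closed under `x` -/
noncomputable def vis (e : Bool) : ℕ :=
  Cfsg.Agent.Lib.PermNetOrbit.sat [ntw w] 15 (walk (pls (ntw w)) [e] tT 0 (Mw []))

/-- everything is visited, and 3511 points are moved to a commuting point -/
noncomputable def chk : Bool := seqB (vis false) fun U => seqB (vis true) fun V =>
  and (Nat.beq (Nat.land full (Nat.lor U V)) full)
    (and (Nat.beq (Cfsg.Agent.Lib.PermNetOrbit.pc 15 U) 3511) (Nat.beq (Nat.shiftRight U (Nat.pow 2 15)) 0))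

theorem chk_true : chk = true := by decide +kernel

/-- one point is fixed -/
noncomputable def chkF : Bool := seqB (pattern [(w, false)]) fun U =>
  and (Nat.beq (Cfsg.Agent.Lib.PermNetOrbit.pc 15 U) 1) (Nat.beq (Nat.shiftRight U (Nat.pow 2 15)) 0)

theorem chkF_true : chkF = true := by decide +kernel

/-- the planes `lo, …, lo + m - 1` -/
noncomputable def planes (k : ℕ) (u v : List Net) (lo m : ℕ) : Bool :=
  Nat.rec (motive := fun _ => Bool) true (fun b ih => and (checkPlane k u v (Nat.add lo b)) ih) m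

theorem planes_spec {k : ℕ} {u v : List Net} {lo m : ℕ} (h : planes k u v lo m = true) :
    ∀ b < m, checkPlane k u v (lo + b) = true := by
  induction m with
  | zero => intro b hb; omega
  | succ m ih =>
    have h' : and (checkPlane k u v (lo + m)) (planes k u v lo m) = true := h
    rw [Bool.and_eq_true] at h'
    intro b hb
    rcases Nat.lt_succ_iff_lt_or_eq.1 hb with hb | rfl
    · exact ih h'.2 b hb
    · exact h'.1

theorem checkPlanes_of {k : ℕ} {u v : List Net} {m : ℕ} (h : ∀ b < m, checkPlane k u v b = true) :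
    checkPlanes k u v m = true := by
  induction m with
  | zero => rfl
  | succ m ih =>
    have h' : and (checkPlane k u v m) (checkPlanes k u v m) = true := by
      rw [Bool.and_eq_true]
      exact ⟨h m (Nat.lt_succ_self m), ih fun b hb => h b (Nat.lt_succ_of_lt hb)⟩
    exact h'

theorem ord_a : planes 15 (ntw (w ++ w ++ (w ++ w) ++ (w ++ w ++ (w ++ w)) ++
    (w ++ w ++ (w ++ w) ++ (w ++ w ++ (w ++ w))))) (ntw []) 0 5 = true := by decide +kernel

theorem ord_b : planes 15 (ntw (w ++ w ++ (w ++ w) ++ (w ++ w ++ (w ++ w)) ++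
    (w ++ w ++ (w ++ w) ++ (w ++ w ++ (w ++ w))))) (ntw []) 5 5 = true := by decide +kernel

theorem ord_c : planes 15 (ntw (w ++ w ++ (w ++ w) ++ (w ++ w ++ (w ++ w)) ++
    (w ++ w ++ (w ++ w) ++ (w ++ w ++ (w ++ w))))) (ntw []) 10 5 = true := by decide +kernel

/-- the order divides 16 -/
theorem ord_true : checkEq 15 (ntw (w ++ w ++ (w ++ w) ++ (w ++ w ++ (w ++ w)) ++
    (w ++ w ++ (w ++ w) ++ (w ++ w ++ (w ++ w))))) (ntw []) = true := by
  refine checkPlanes_of fun b hb => ?_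
  rcases Nat.lt_or_ge b 5 with h | h
  · have := planes_spec ord_a b h
    rwa [Nat.zero_add] at this
  · rcases Nat.lt_or_ge b 10 with h1 | h1
    · have := planes_spec ord_b (b - 5) (by omega)
      rwa [Nat.add_sub_cancel' h] at this
    · have := planes_spec ord_c (b - 10) (by omega)
      rwa [Nat.add_sub_cancel' h1] at this

/-- the transpositions commuting with `z0` and `i`: 693 others -/
noncomputable def chkL : Bool := seqB (pattern [([.z], false), ([.i], false)]) fun U =>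
  and (Nat.beq (Cfsg.Agent.Lib.PermNetOrbit.pc 15 U) 695) (Nat.beq (Nat.shiftRight U (Nat.pow 2 15)) 0)

theorem chkL_true : chkL = true := by decide +kernel

/-- the transpositions commuting with `z0`: 3510 others -/
noncomputable def chkK : Bool := seqB (pattern [([.z], false)]) fun U =>
  and (Nat.beq (Cfsg.Agent.Lib.PermNetOrbit.pc 15 U) 3511) (Nat.beq (Nat.shiftRight U (Nat.pow 2 15)) 0)

theorem chkK_true : chkK = true := by decide +kernel

end Cfsg.Agent.H532.PNormTwo.Fi23
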