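import Cfsg.Agent.H532.PNormTwo.Gen
import Cfsg.Agent.H532.PNormTwo.Fi23Chk
import Cfsg.Agent.KFacts.FiTTh.Has

/-!
# `Fi₂₃`: an element of order a power of 2 at which the characters of degree 782 and 30888 vanish (helper532)

The element of order 16 fixes 1 of the 31671 transpositions and moves 3510 of them to transpositions commuting with
them.
-/

set_option autoImplicit false

namespace Cfsg.Agent.H532.PNormTwo.Fi23

open Cfsg Cfsg.Agent.Fischer.Abstract Cfsg.Agent.Lib.PermNet Cfsg.Agent.Lib.PermNetOrbit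
open Cfsg.Agent.LThreeFi23 Cfsg.Agent.Fischer.Fi23Hom
open Cfsg.Agent.Fischer.Fi23Z (z0)
open Cfsg.Agent.H690.Spor.RankThree Cfsg.Agent.H690.Spor.RankThree.R3
open Cfsg.Spor (Fi23)

universe u

/-! ### The masks -/

/-- the element -/
noncomputable def x : Fi23 := elw w

theorem pimg_w (q : ℕ) (hq : q < 31671) : pimg (pls (ntw w)) q = rho x q := by
  rw [pimg_pls _ (ntw_ok w) (by omega), ← rho_elw]
  rfl

theorem vis_spec {e : Bool} {p : ℕ} (h : (vis e).testBit p = true) : p < 31671 ∧ ¬ (Com p (rho x p) ↔ e = true) := by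
  obtain ⟨k', ⟨k, hk, rfl⟩, hk'⟩ := sat_spec (K := (Subgroup.zpowers x).map rho) (N := 2 ^ 15)
    (by
      intro u hu
      rw [List.mem_singleton] at hu
      rw [hu]
      exact ntw_ok w)
    (by
      intro u hu
      rw [List.mem_singleton] at hu
      rw [hu]
      exact ⟨x, Subgroup.mem_zpowers _, rho_elw w⟩) 15 h
  have hM : Msk 0 (Mw []) := by
    have := Mw_msk []
    rw [elw_nil, map_one] at this
    exact this
  obtain ⟨h1, h2⟩ := walk_spec pimg_w [e] tT (by norm_num) hM hk'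
  have hcomm : k⁻¹ * x = x * k⁻¹ := by
    obtain ⟨m, rfl⟩ := hk
    exact ((Commute.refl x).zpow_left m).inv_left.eq
  have h3 := h2.act h1 hcomm
  have h4 : rho k⁻¹ (rho k p) = p := by
    rw [← Equiv.Perm.mul_apply, ← map_mul, inv_mul_cancel, map_one]
    rfl
  rw [h4] at h3
  have h5 : p < 31671 := by
    rw [← h4]
    exact act_lt _ h1
  refine ⟨h5, ?_⟩
  obtain ⟨i, hi, h6⟩ := h3
  have h7 : i = 0 := by
    simp only [List.length_cons, List.length_nil] at hi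
    omega
  subst h7
  simpa using h6

theorem ncard_seqB {U V m : ℕ} (h : and (Nat.beq (Nat.land full (Nat.lor U V)) full)
    (and (Nat.beq (pc 15 U) m) (Nat.beq (Nat.shiftRight U (Nat.pow 2 15)) 0)) = true) :
    full &&& (U ||| V) = full ∧ {p : ℕ | U.testBit p = true}.ncard = m := by
  rw [Bool.and_eq_true, Bool.and_eq_true] at h
  exact ⟨Nat.eq_of_beq_eq_true h.1, ncard_testBit h.2.2 h.2.1⟩

theorem chk_spec : (∀ p < 31671, (vis false).testBit p = true ↔ Com p (rho x p)) ∧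
    {p : ℕ | (vis false).testBit p = true}.ncard = 3511 := by
  have h := chk_true
  unfold chk at h
  rw [seqB_eq, seqB_eq] at h
  obtain ⟨h5, h2⟩ := ncard_seqB h
  refine ⟨fun p hp => ⟨fun h4 => ?_, fun h4 => ?_⟩, h2⟩
  · have h5 := (vis_spec h4).2
    by_contra h6
    apply h5
    exact iff_of_false h6 (by simp)
  · have h6 := (testBit_full p).2 hp
    rw [← h5, Nat.testBit_and, Nat.testBit_or, Bool.and_eq_true, Bool.or_eq_true] at h6
    rcases h6.2 with h7 | h7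
    · exact h7
    · exact absurd (iff_of_true h4 rfl) (vis_spec h7).2

/-- the points fixed by some letters -/
theorem ncard_pattern {cs : List (List Lt × Bool)} {m : ℕ} (h : (seqB (pattern cs) fun U =>
    and (Nat.beq (pc 15 U) m) (Nat.beq (Nat.shiftRight U (Nat.pow 2 15)) 0)) = true) :
    {p : ℕ | (pattern cs).testBit p = true}.ncard = m := by
  rw [seqB_eq, Bool.and_eq_true] at h
  exact ncard_testBit h.2 h.1

theorem pow_x : x ^ 16 = 1 := by
  have h := elw_eq_of_checkEq ord_true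
  simp only [elw_append, elw_nil] at h
  have h1 : x ^ 16 = x * x * (x * x) * (x * x * (x * x)) * (x * x * (x * x) * (x * x * (x * x))) := by
    have e2 : x * x = x ^ 2 := (pow_two x).symm
    rw [e2, ← pow_add, ← pow_add, ← pow_add]
  rw [h1]
  exact h

/-! ### The points -/

variable {R : Rank3 Fi23 (Fi23 ⧸ Fischer.Fi23Class.K)}

/-- the points as numbers -/
theorem exists_e (hR : R.t R.x0 = z0) (hR0 : R.x0 = ((1 : Fi23) : Fi23 ⧸ Fischer.Fi23Class.K)) :
    ∃ e : (Fi23 ⧸ Fischer.Fi23Class.K) ≃ Fin 31671, ((e R.x0 : Fin 31671) : ℕ) = 0 ∧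
      (∀ (g : Fi23) y, ((e (g • y) : Fin 31671) : ℕ) = rho g (e y)) ∧ ∀ y z, R.Com y z ↔ Com (e y) (e z) := by
  have h0 : ∀ y, ∃ g : Fi23, g • R.x0 = y := R.trans
  choose f hf using h0
  have hlt : ∀ y, rho (f y) 0 < 31671 := fun y => act_lt _ (by norm_num)
  have hval : ∀ g : Fi23, rho (f (g • R.x0)) 0 = rho g 0 := fun g => (smul_x0_iff hR0 _ _).1 (hf _)
  obtain ⟨e, he⟩ : ∃ e : (Fi23 ⧸ Fischer.Fi23Class.K) ≃ Fin 31671, ∀ y, ((e y : Fin 31671) : ℕ) = rho (f y) 0 := by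
    refine ⟨Equiv.ofBijective (fun y => (⟨rho (f y) 0, hlt y⟩ : Fin 31671)) ⟨fun y z h => ?_, fun p => ?_⟩,
      fun y => rfl⟩
    · have h1 : rho (f y) 0 = rho (f z) 0 := congrArg Fin.val h
      rw [← hf y, ← hf z]
      exact (smul_x0_iff hR0 _ _).2 h1
    · obtain ⟨g, hg⟩ := exists_rep p.2
      exact ⟨g • R.x0, Fin.ext ((hval g).trans hg)⟩
  have h1 : ∀ g : Fi23, ((e (g • R.x0) : Fin 31671) : ℕ) = rho g 0 := fun g => (he _).trans (hval g)
  refine ⟨e, ?_, fun g y => ?_, fun y z => ?_⟩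
  · have := h1 1
    rw [one_smul, map_one] at this
    exact this
  · obtain ⟨k, rfl⟩ := R.trans y
    rw [← mul_smul, h1, h1, map_mul, Equiv.Perm.mul_apply]
  · obtain ⟨g, rfl⟩ := R.trans y
    obtain ⟨k, rfl⟩ := R.trans z
    rw [h1, h1, com_iff (act_lt _ (by norm_num)), T_eq rfl, T_eq rfl, R.com_def, R.map_smul, R.map_smul, hR]

theorem card_eq {X : Type*} {N : ℕ} (e : X ≃ Fin N) (p : X → Prop) (S : Set ℕ)
    (h : ∀ y, p y ↔ ((e y : Fin N) : ℕ) ∈ S) (hS : ∀ n ∈ S, n < N) : Nat.card {y // p y} = S.ncard := by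
  rw [← Nat.card_coe_set_eq]
  refine Nat.card_congr ⟨fun y => ⟨(e y.1 : Fin N), (h _).1 y.2⟩, fun n => ⟨e.symm ⟨n.1, hS _ n.2⟩, (h _).2 ?_⟩,
    fun y => ?_, fun n => ?_⟩
  · rw [e.apply_symm_apply]
    exact n.2
  · apply Subtype.ext
    show e.symm ⟨(e y.1 : Fin N), _⟩ = y.1
    rw [Fin.eta, e.symm_apply_apply]
  · apply Subtype.ext
    show ((e (e.symm ⟨n.1, _⟩) : Fin N) : ℕ) = n.1
    rw [e.apply_symm_apply]

/-- the points fixed by the element -/
theorem ncard_fix : {p : ℕ | p < 31671 ∧ rho x p = p}.ncard = 1 := by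
  rw [← ncard_pattern chkF_true]
  congr 1
  ext p
  rw [Set.mem_ofPred_eq, Set.mem_ofPred_eq, testBit_pattern, pat_cons]
  simp [Pat, x]

theorem ncard_al : {p : ℕ | p < 31671 ∧ p ≠ rho x p ∧ Com p (rho x p)}.ncard = 3510 := by
  obtain ⟨h1, h2⟩ := chk_spec
  have h3 : {p : ℕ | p < 31671 ∧ p ≠ rho x p ∧ Com p (rho x p)} =
      {p : ℕ | (vis false).testBit p = true} \ {p : ℕ | p < 31671 ∧ rho x p = p} := by
    ext p
    simp only [Set.mem_ofPred_eq, Set.mem_sdiff]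
    constructor
    · rintro ⟨h4, h5, h6⟩
      exact ⟨(h1 p h4).2 h6, fun h7 => h5 h7.2.symm⟩
    · rintro ⟨h4, h5⟩
      have h6 := (vis_spec h4).1
      exact ⟨h6, fun h7 => h5 ⟨h6, h7.symm⟩, (h1 p h6).1 h4⟩
  have h4 : {p : ℕ | p < 31671 ∧ rho x p = p} ⊆ {p : ℕ | (vis false).testBit p = true} := by
    rintro p ⟨h5, h6⟩
    show (vis false).testBit p = true
    rw [h1 p h5, h6]
    exact com_self h5
  rw [h3, Set.ncard_sdiff h4 (Set.finite_of_ncard_pos (by rw [ncard_fix]; norm_num)), h2, ncard_fix]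

theorem ncard_zero : {p : ℕ | p < 31671 ∧ (0 ≠ p ∧ Com 0 p)}.ncard = 3510 := by
  have h1 : {p : ℕ | p < 31671 ∧ (0 ≠ p ∧ Com 0 p)} = {p : ℕ | (pattern [([.z], false)]).testBit p = true} \ {0} := by
    ext p
    simp only [Set.mem_ofPred_eq, Set.mem_sdiff, Set.mem_singleton_iff]
    by_cases hp : p < 31671
    · rw [msk_zero p hp]
      constructor
      · rintro ⟨-, h1, h2⟩
        exact ⟨h2, h1.symm⟩
      · rintro ⟨h1, h2⟩
        exact ⟨hp, Ne.symm h2, h1⟩
    · rw [testBit_pattern]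
      constructor
      · rintro ⟨h, -⟩
        exact absurd h hp
      · rintro ⟨⟨h, -⟩, -⟩
        exact absurd h hp
  have h2 : (0 : ℕ) ∈ {p : ℕ | (pattern [([.z], false)]).testBit p = true} := by
    show (pattern [([.z], false)]).testBit 0 = true
    rw [msk_zero 0 (by norm_num)]
    exact com_self (by norm_num)
  rw [h1, Set.ncard_sdiff_singleton_of_mem h2, ncard_pattern chkK_true]

theorem ncard_both : {p : ℕ | p < 31671 ∧ ((0 ≠ p ∧ Com 0 p) ∧ (p ≠ pt .i ∧ Com p (pt .i)))}.ncard = 693 := by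
  have hcom : ∀ p < 31671, (Com p (pt .i) ↔ rho (el .i) p = p) := by
    intro p hp
    rw [com_comm hp (pt_lt _), com_pt_iff]
  have hpat : ∀ p, (pattern [([.z], false), ([.i], false)]).testBit p = true ↔
      p < 31671 ∧ Com 0 p ∧ Com p (pt .i) := by
    intro p
    rw [testBit_pattern, pat_cons, pat_cons, elw_one, elw_one]
    have h1 := com_pt_iff .z p
    change Com 0 p ↔ _ at h1
    constructor
    · rintro ⟨h2, h3, h4, -⟩
      refine ⟨h2, h1.2 (not_not.1 fun h => absurd (h3.1 h) (by simp)), (hcom p h2).2 (not_not.1 fun h =>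
        absurd (h4.1 h) (by simp))⟩
    · rintro ⟨h2, h3, h4⟩
      refine ⟨h2, iff_of_false (not_not.2 (h1.1 h3)) (by simp), iff_of_false (not_not.2 ((hcom p h2).1 h4)) (by simp),
        fun c hc => absurd hc (by simp)⟩
  have hzi : Com 0 (pt .i) := (com_pt_iff .z (pt .i)).2 ((fix_pt_iff _ _).2 (z_comm_el .i (by decide)))
  have h1 : {p : ℕ | p < 31671 ∧ ((0 ≠ p ∧ Com 0 p) ∧ (p ≠ pt .i ∧ Com p (pt .i)))} =
      {p : ℕ | (pattern [([.z], false), ([.i], false)]).testBit p = true} \ {0, pt .i} := by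
    ext p
    simp only [Set.mem_ofPred_eq, Set.mem_sdiff, Set.mem_insert_iff, Set.mem_singleton_iff, not_or]
    rw [hpat]
    constructor
    · rintro ⟨h2, ⟨h3, h4⟩, h5, h6⟩
      exact ⟨⟨h2, h4, h6⟩, h3.symm, h5⟩
    · rintro ⟨⟨h2, h4, h6⟩, h3, h5⟩
      exact ⟨h2, ⟨Ne.symm h3, h4⟩, h5, h6⟩
  have h2 : ({0, pt .i} : Set ℕ) ⊆ {p : ℕ | (pattern [([.z], false), ([.i], false)]).testBit p = true} := by
    rintro p (rfl | rfl)
    · exact (hpat _).2 ⟨by norm_num, com_self (by norm_num), hzi⟩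
    · exact (hpat _).2 ⟨pt_lt _, hzi, com_self (pt_lt _)⟩
  rw [h1, Set.ncard_sdiff h2 (Set.toFinite _), ncard_pattern chkL_true, Set.ncard_pair (by decide)]

/-! ### The zero -/

open Classical in
theorem vz : Cfsg.Agent.H713.VZ Fi23 x := by
  have hfin : Finite Fi23 := finG
  obtain ⟨R, hR, hR0⟩ := exists_R
  obtain ⟨e, he0, he1, he2⟩ := exists_e hR hR0
  have := Fintype.ofEquiv _ e.symm
  have hlt : ∀ y, ((e y : Fin 31671) : ℕ) < 31671 := fun y => (e y).2
  have hne : ∀ y z, y ≠ z ↔ ((e y : Fin 31671) : ℕ) ≠ e z := fun y z => by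
    rw [ne_eq, ne_eq, ← Fin.ext_iff, e.injective.eq_iff]
  have hk : Nat.card {y // CR R R.x0 y} = 3510 := by
    rw [← ncard_zero]
    refine card_eq e _ _ (fun y => ?_) fun n hn => hn.1
    unfold CR
    rw [hne, he2, he0]
    exact ⟨fun h => ⟨hlt y, h⟩, fun h => h.2⟩
  have hX : Nat.card (Fi23 ⧸ Fischer.Fi23Class.K) = 1 + 3510 + 28160 := by
    rw [Nat.card_congr e, Nat.card_eq_fintype_card, Fintype.card_fin]
  have h3 : R3 Fi23 (Fi23 ⧸ Fischer.Fi23Class.K) (CR R) 3510 28160 := r3c R hk (by norm_num) (by norm_num) hX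
  obtain ⟨y, hy⟩ : ∃ y, ((e y : Fin 31671) : ℕ) = pt .i :=
    ⟨e.symm ⟨pt .i, pt_lt _⟩, by rw [e.apply_symm_apply]⟩
  have hzi : Com 0 (pt .i) := (com_pt_iff .z (pt .i)).2 ((fix_pt_iff _ _).2 (z_comm_el .i (by decide)))
  have hl : com (CR R) R.x0 y = 693 := by
    rw [← ncard_both]
    refine card_eq e _ _ (fun z => ?_) fun n hn => hn.1
    unfold CR
    rw [hne, hne, he2, he2, he0, hy]
    exact ⟨fun h => ⟨hlt z, h⟩, fun h => h.2⟩
  have hab := Cfsg.Agent.H442.RankVal.params (h := h3) (x₀ := R.x0) (y₀ := y)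
    ⟨(hne _ _).2 (by rw [he0, hy]; decide), (he2 _ _).2 (by rw [he0, hy]; exact hzi)⟩ (a := 693) (b := 351) hl
    (by norm_num)
  refine vz_of h3 hab (r := -9) (s := 351) (by norm_num) (by norm_num) (by norm_num) (by norm_num) (by norm_num) x
    (fun β => ?_) (A := 3510) (P := 1) ?_ ?_ (by norm_num)
  · refine (exists_sigma R β ?_).imp fun σ h => ⟨fun y => h.2.1 x y, h.2.2⟩
    obtain ⟨g, rfl⟩ := Cfsg.Agent.KFacts.FiTTh.Has.inn β
    exact ⟨g • R.x0, (R.map_smul g R.x0).symm⟩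
  · rw [← ncard_al]
    refine card_eq e _ _ (fun z => ?_) fun n hn => hn.1
    unfold CR
    rw [hne, he2, he1]
    exact ⟨fun h => ⟨hlt z, h⟩, fun h => h.2⟩
  · rw [← ncard_fix]
    refine card_eq e (fun y => y ∈ MulAction.fixedBy _ x) _ (fun z => ?_) fun n hn => hn.1
    rw [MulAction.mem_fixedBy, ← e.injective.eq_iff, Fin.ext_iff, he1]
    exact ⟨fun h => ⟨hlt z, h⟩, fun h => h.2⟩

/-- **`Fi₂₃`, the prime 2.** -/
theorem fi23_2 {K : Type u} [Group K] (h : Spor.IsoFi23 K) : Cfsg.Agent.H620.PNorm.VPow 2 K := by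
  obtain ⟨e⟩ := h
  have h1 : Cfsg.Agent.H620.PNorm.VPow 2 Fi23 := by
    refine ⟨x, ?_, vz⟩
    obtain ⟨j, -, hj⟩ := (Nat.dvd_prime_pow Nat.prime_two).1
      (show orderOf x ∣ 2 ^ 4 from orderOf_dvd_of_pow_eq_one (by norm_num; exact pow_x))
    exact ⟨j, hj⟩
  exact h1.mulEquiv e.symm

end Cfsg.Agent.H532.PNormTwo.Fi23
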